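import Mathlib

/-!
# Centralizers of matrices with a cyclic vector

* `exists_aeval` : a matrix which commutes with a matrix `X` with a cyclic vector is a polynomial in `X`;
* `pow_eq_self` : over `ZMod p`, `X ^ (p ^ k) = X` implies `f(X) ^ (p ^ k) = f(X)`.
-/

set_option autoImplicit false

namespace Cfsg.Agent.H160.Cyclic

open Matrix Polynomial

theorem exists_aeval {n : ℕ} {K : Type*} [Field K] {X P P' C : Matrix (Fin (n + 1)) (Fin (n + 1)) K}
    (hP : ∀ i, ∀ j : Fin n, (X * P) i j.castSucc = P i j.succ) (hP' : P * P' = 1)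
    (hC : C * X = X * C) : ∃ f : K[X], C = aeval X f := by
  set v : Fin (n + 1) → K := fun i => P i 0 with hv
  have hcol : ∀ j : Fin (n + 1), (fun i => P i j) = (X ^ (j : ℕ)) *ᵥ v := by
    intro j
    induction j using Fin.induction with
    | zero => simp [hv]
    | succ j ih =>
      have h1 : (fun i => P i j.succ) = X *ᵥ (fun i => P i j.castSucc) := by
        ext i
        rw [← hP i j]
        rfl
      rw [h1, ih, Matrix.mulVec_mulVec, Fin.val_succ, pow_succ']
      rfl
  set a : Fin (n + 1) → K := P' *ᵥ (C *ᵥ v) with ha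
  have hPa : P *ᵥ a = C *ᵥ v := by rw [ha, Matrix.mulVec_mulVec, hP', Matrix.one_mulVec]
  set f : K[X] := ∑ j : Fin (n + 1), Polynomial.C (a j) * (Polynomial.X : K[X]) ^ (j : ℕ) with hf
  have hfv : (aeval X f) *ᵥ v = C *ᵥ v := by
    rw [← hPa, hf, map_sum, Matrix.sum_mulVec]
    ext i
    rw [Finset.sum_apply, Matrix.mulVec, dotProduct]
    refine Finset.sum_congr rfl fun j _ => ?_
    rw [map_mul, map_pow, Polynomial.aeval_X, Polynomial.aeval_C, ← Algebra.smul_def,
      Matrix.smul_mulVec, ← hcol j, Pi.smul_apply, smul_eq_mul, mul_comm]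
  refine ⟨f, ?_⟩
  have hcomm : (C - aeval X f) * X = X * (C - aeval X f) := by
    rw [Matrix.sub_mul, Matrix.mul_sub, hC]
    congr 1
    have h : aeval X (f * Polynomial.X) = aeval X f * X := by rw [map_mul, Polynomial.aeval_X]
    have h' : aeval X (Polynomial.X * f) = X * aeval X f := by rw [map_mul, Polynomial.aeval_X]
    rw [← h, ← h', mul_comm]
  have hcomm' : ∀ k : ℕ, (C - aeval X f) * X ^ k = X ^ k * (C - aeval X f) := by
    intro k
    exact (Commute.pow_right (show Commute (C - aeval X f) X from hcomm) k)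
  have hD : (C - aeval X f) * P = 0 := by
    ext i j
    have h1 : ((C - aeval X f) * P) i j = ((C - aeval X f) *ᵥ (fun i => P i j)) i := rfl
    rw [h1, hcol j, Matrix.mulVec_mulVec, hcomm', ← Matrix.mulVec_mulVec, Matrix.sub_mulVec, hfv,
      sub_self, Matrix.mulVec_zero]
    rfl
  have h2 : (C - aeval X f) * (P * P') = 0 := by rw [← Matrix.mul_assoc, hD, Matrix.zero_mul]
  rw [hP', Matrix.mul_one] at h2
  exact sub_eq_zero.1 h2

theorem pow_expand (p : ℕ) [Fact p.Prime] (k : ℕ) (f : (ZMod p)[X]) :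
    f ^ (p ^ k) = expand (ZMod p) (p ^ k) f := by
  induction k with
  | zero => simp
  | succ k ih =>
    rw [pow_succ, pow_mul, ih, ← ZMod.expand_card, Polynomial.expand_expand, mul_comm]

theorem pow_eq_self {p : ℕ} [Fact p.Prime] {A : Type*} [Ring A] [Algebra (ZMod p) A] {k : ℕ} {X : A}
    (hX : X ^ (p ^ k) = X) (f : (ZMod p)[X]) : (aeval X f) ^ (p ^ k) = aeval X f := by
  rw [← map_pow, pow_expand, Polynomial.expand_aeval, hX]

end Cfsg.Agent.H160.Cyclic
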